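import Cfsg.Agent.H933.OZ.U42
import Cfsg.Agent.S0822

/-!
# S4842: the row `PSp_4(3)` (helper933)
-/

set_option autoImplicit false

namespace Cfsg.Agent.H933.OZ.U42

open Cfsg

universe u

/-- **`PSp_4(3)`** -/
theorem row_psp43 {S : Type u} [Group S] [Finite S] {F : Type} [Field F] [Fintype F]
    (hF : Fintype.card F = 3) (e : S ≃* PSp 2 F) : H730.OZ.Row S := by
  obtain ⟨f⟩ := S0822.result (F := SporadicA.FieldFour.F4) (K := F) rfl hF
  exact row_u42 (F := SporadicA.FieldFour.F4) rfl (e.trans f.symm)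

end Cfsg.Agent.H933.OZ.U42
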