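import Cfsg.Agent.LieClassical.GUOrder
import Cfsg.Agent.LieClassical.SUBasic

/-!
# Counting the unitary matrices that normalise a cyclic element modulo scalars (helper933, for S4842)

`T` an isometry of the Hermitian form with a cyclic vector `e`. A unitary `g` with `g T = c T g` is
determined by `c` and `g e`, and `v = g e` satisfies `h(v, T ^ i v) = c ^ i h(e, T ^ i e)`. The number of
these pairs is bounded by a computation with lists (`Cyc.cnt`).
-/

set_option autoImplicit false

namespace Cfsg.Agent.H933.OZ.Cyc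

open Cfsg Matrix Finset

/-! ### lists -/

/-- raw operations -/
structure Ops (α : Type) where
  add : α → α → α
  mul : α → α → α
  cj : α → α
  eq : α → α → Bool
  zero : α
  seq : α → (α → ℕ) → ℕ

section lists

variable {α : Type} (O : Ops α)

def dotL : List α → List α → α
  | [], _ => O.zero
  | _ :: _, [] => O.zero
  | a :: l, b :: m => O.add (O.mul a b) (dotL l m)

def seqL : List α → (List α → ℕ) → ℕ
  | [], k => k []
  | a :: l, k => O.seq a fun a' => seqL l fun l' => k (a' :: l')

def hd (x : α) : List α → Option (List α)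
  | [] => none
  | y :: t => if O.eq y x then some t else none

def go (T : List (List α)) (v : List α) : ℕ → List α → List (List α) → ℕ
  | 0, _, tg => tg.length
  | k + 1, w, tg => O.seq (dotL O v (w.map O.cj)) fun x =>
      match tg.filterMap (hd O x) with
      | [] => 0
      | t :: tg' => seqL O (T.map fun r => dotL O r w) fun w' => go T v k w' (t :: tg')

def cnt (els : List α) (T : List (List α)) (tg : List (List α)) (n : ℕ) : ℕ → List α → ℕ
  | 0, p => go O T p n p tg
  | k + 1, p => els.foldr (fun a s => cnt els T tg n k (a :: p) + s) 0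

end lists

/-! ### semantics -/

/-- the operations compute in the field -/
structure Law {α : Type} (O : Ops α) {F : Type} [Field F] (q : ℕ) (enc : F → α) : Prop where
  add : ∀ a b, O.add (enc a) (enc b) = enc (a + b)
  mul : ∀ a b, O.mul (enc a) (enc b) = enc (a * b)
  cj : ∀ a, O.cj (enc a) = enc (a ^ q)
  eq : ∀ a, O.eq (enc a) (enc a) = true
  zero : O.zero = enc 0
  seq : ∀ x k, O.seq x k = k x

section sem

variable {α : Type} {O : Ops α} {F : Type} [Field F] {q : ℕ} {enc : F → α} (H : Law O q enc)
include H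

omit H in
/-- the list of a vector -/
def L (enc : F → α) {n : ℕ} (v : Fin n → F) : List α := List.ofFn fun i => enc (v i)

theorem dot_spec {n : ℕ} (u v : Fin n → F) : dotL O (L enc u) (L enc v) = enc (∑ i, u i * v i) := by
  induction n with
  | zero => simp [L, dotL, H.zero]
  | succ n ih =>
    have h1 := ih (fun i => u i.succ) fun i => v i.succ
    simp only [L, List.ofFn_succ, dotL, Fin.sum_univ_succ] at h1 ⊢
    rw [h1, H.mul, H.add]

theorem cj_spec {n : ℕ} (v : Fin n → F) : (L enc v).map O.cj = L enc fun i => v i ^ q := by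
  unfold L
  rw [List.map_ofFn]
  congr 1
  funext i
  exact H.cj _

theorem herm_spec {n : ℕ} (u v : Fin n → F) :
    dotL O (L enc u) ((L enc v).map O.cj) = enc (hermForm n F q u v) := by
  rw [cj_spec H, dot_spec H]
  rfl

omit H in
/-- the rows of a matrix -/
def rows (enc : F → α) {n : ℕ} (A : Matrix (Fin n) (Fin n) F) : List (List α) :=
  List.ofFn fun i => L enc (A i)

theorem mv_spec {n : ℕ} (A : Matrix (Fin n) (Fin n) F) (v : Fin n → F) :
    ((rows enc A).map fun r => dotL O r (L enc v)) = L enc (A *ᵥ v) := by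
  unfold rows
  rw [List.map_ofFn]
  unfold L
  congr 1
  funext i
  exact dot_spec H _ _

theorem seqL_spec (l : List α) (k : List α → ℕ) : seqL O l k = k l := by
  induction l generalizing k with
  | nil => rfl
  | cons a l ih =>
    rw [seqL, H.seq, ih]

omit H in
/-- the invariants -/
def qs (enc : F → α) (q : ℕ) {n : ℕ} (T : Matrix (Fin n) (Fin n) F) (v : Fin n → F) :
    ℕ → (Fin n → F) → List α
  | 0, _ => []
  | k + 1, w => enc (hermForm n F q v w) :: qs enc q T v k (T *ᵥ w)

theorem count_le_filterMap [DecidableEq α] (x : F) (l : List α) (tg : List (List α)) :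
    List.count (enc x :: l) tg ≤ List.count l (tg.filterMap (hd O (enc x))) := by
  induction tg with
  | nil => simp
  | cons t tg ih =>
    by_cases h : t = enc x :: l
    · subst h
      rw [List.count_cons_self, List.filterMap_cons_some (b := l) (by simp [hd, H.eq]),
        List.count_cons_self]
      omega
    · rw [List.count_cons_of_ne h]
      refine ih.trans ?_
      rw [List.filterMap_cons]
      split
      · exact le_rfl
      · exact List.count_le_count_cons

theorem go_spec [DecidableEq α] {n : ℕ} (T : Matrix (Fin n) (Fin n) F) (v : Fin n → F) (k : ℕ)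
    (w : Fin n → F) (tg : List (List α)) :
    List.count (qs enc q T v k w) tg ≤ go O (rows enc T) (L enc v) k (L enc w) tg := by
  induction k generalizing w tg with
  | zero =>
    rw [go]
    exact List.count_le_length
  | succ k ih =>
    rw [go, H.seq, herm_spec H, qs]
    refine (count_le_filterMap H _ _ _).trans ?_
    split
    · rename_i h
      rw [h]
      simp
    · rename_i t tg' h
      rw [seqL_spec H, mv_spec H, h]
      exact ih _ _

omit H [Field F] in
theorem sum_snoc {k : ℕ} [Fintype F] (f : (Fin (k + 1) → F) → ℕ) :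
    ∑ v : Fin (k + 1) → F, f v = ∑ a : F, ∑ v : Fin k → F, f (Fin.snoc v a) := by
  rw [← Fintype.sum_prod_type']
  exact (Equiv.sum_comp (Fin.snocEquiv fun _ => F) f).symm

omit H [Field F] in
theorem L_snoc {k : ℕ} (v : Fin k → F) (a : F) (p : List α) :
    L enc (Fin.snoc v a : Fin (k + 1) → F) ++ p = L enc v ++ enc a :: p := by
  unfold L
  rw [List.ofFn_succ', List.concat_eq_append, List.append_assoc]
  simp

omit H [Field F] in
theorem cnt_spec [Fintype F] {els : List α}
    (hels : ∀ f : α → ℕ, ∑ a : F, f (enc a) ≤ els.foldr (fun a s => f a + s) 0)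
    (T : List (List α)) (tg : List (List α)) (n k : ℕ) (p : List α) :
    ∑ v : Fin k → F, go O T (L enc v ++ p) n (L enc v ++ p) tg ≤ cnt O els T tg n k p := by
  induction k generalizing p with
  | zero =>
    rw [cnt, Fintype.sum_unique]
    exact le_of_eq (by simp [L])
  | succ k ih =>
    rw [cnt, sum_snoc]
    refine le_trans ?_ (hels fun a => cnt O els T tg n k (a :: p))
    refine Finset.sum_le_sum fun a _ => ?_
    simp only [L_snoc]
    exact ih (enc a :: p)

end sem

/-! ### unitary matrices -/

section unitary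

variable {α : Type} {O : Ops α} {F : Type} [Field F] [Fintype F] [DecidableEq F] {q n : ℕ} {enc : F → α}

/-- the matrix of an element of `GU` -/
abbrev gm (g : GU n F q) : Matrix (Fin n) (Fin n) F := ((g : GL (Fin n) F) : Matrix (Fin n) (Fin n) F)

/-- the target invariants -/
def tgts (enc : F → α) (q : ℕ) (T : Matrix (Fin n) (Fin n) F) (e : Fin n → F) (c : F) :
    ℕ → F → (Fin n → F) → List α
  | 0, _, _ => []
  | k + 1, d, w => enc (d * hermForm n F q e w) :: tgts enc q T e c k (c * d) (T *ᵥ w)

omit [DecidableEq F] in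
theorem qs_eq (hF : Fintype.card F = q ^ 2) (T : Matrix (Fin n) (Fin n) F) (e : Fin n → F) {c : F}
    (hc : c ^ (q + 1) = 1) {g : GU n F q} (hg : gm g * T = c • (T * gm g)) (k : ℕ) {d : F}
    (hd : d ^ (q + 1) = 1) {w w' : Fin n → F} (hw : gm g *ᵥ w = d • w') :
    qs enc q T (gm g *ᵥ e) k w' = tgts enc q T e c k d w := by
  induction k generalizing d w w' with
  | zero => rfl
  | succ k ih =>
    rw [qs, tgts]
    congr 1
    · congr 1
      have h1 := g.2 e w
      change hermForm n F q (gm g *ᵥ e) (gm g *ᵥ w) = hermForm n F q e w at h1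
      rw [hw, LieClassical.GUOrder.herm_smul_right hF, LieClassical.GUOrder.frob_apply] at h1
      rw [← h1, ← mul_assoc, ← pow_succ', hd, one_mul]
    · refine ih (by rw [mul_pow, hc, hd, one_mul]) ?_
      rw [Matrix.mulVec_mulVec, hg, Matrix.smul_mulVec, ← Matrix.mulVec_mulVec, hw, Matrix.mulVec_smul,
        smul_smul]

/-- the matrix of the Krylov space -/
def kry (T : Matrix (Fin n) (Fin n) F) (e : Fin n → F) : Matrix (Fin n) (Fin n) F :=
  Matrix.of fun i j => ((T ^ (j : ℕ)) *ᵥ e) i

omit [Fintype F] [DecidableEq F] in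
theorem mul_kry (T : Matrix (Fin n) (Fin n) F) (e : Fin n → F) {c : F} {M : Matrix (Fin n) (Fin n) F}
    (hM : M * T = c • (T * M)) :
    M * kry T e = Matrix.of fun (i j : Fin n) => c ^ (j : ℕ) * ((T ^ (j : ℕ)) *ᵥ (M *ᵥ e)) i := by
  have h1 : ∀ k : ℕ, M * T ^ k = c ^ k • (T ^ k * M) := by
    intro k
    induction k with
    | zero => simp
    | succ k ih =>
      rw [pow_succ, ← mul_assoc, ih, Matrix.smul_mul, mul_assoc, hM, Matrix.mul_smul, smul_smul, ← mul_assoc,
        ← pow_succ, ← pow_succ]
  ext i j
  have h2 : (M * kry T e) i j = (M *ᵥ ((T ^ (j : ℕ)) *ᵥ e)) i := rfl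
  rw [h2, Matrix.mulVec_mulVec, h1, Matrix.smul_mulVec, ← Matrix.mulVec_mulVec]
  rfl

theorem card_le (H : Law O q enc) (hF : Fintype.card F = q ^ 2) {els : List α}
    (hels : ∀ f : α → ℕ, ∑ a : F, f (enc a) ≤ els.foldr (fun a s => f a + s) 0)
    (T : Matrix (Fin n) (Fin n) F) (e : Fin n → F) {E' : Matrix (Fin n) (Fin n) F}
    (hE : kry T e * E' = 1) {cs : List F} (hcs : ∀ c ∈ cs, c ^ (q + 1) = 1)
    {R : List (List α)} (hR : rows enc T = R) {tg : List (List α)}
    (htg : cs.map (fun c => tgts enc q T e c n 1 e) = tg) (P : Finset (GU n F q))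
    (hP : ∀ g ∈ P, ∃ c ∈ cs, gm g * T = c • (T * gm g)) :
    P.card ≤ cnt O els R tg n n [] := by
  classical
  choose! cc hcc hccg using hP
  set D : Finset (F × (Fin n → F)) := (cs.toFinset ×ˢ univ).filter fun x =>
    qs enc q T x.2 n x.2 = tgts enc q T e x.1 n 1 e with hD
  have h1 : P.card ≤ D.card := by
    refine Finset.card_le_card_of_injOn (fun g => (cc g, gm g *ᵥ e)) ?_ ?_
    · intro g hg
      rw [Finset.mem_coe] at hg
      rw [Finset.mem_coe, hD, mem_filter, mem_product, List.mem_toFinset]
      refine ⟨⟨hcc g hg, mem_univ _⟩, ?_⟩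
      exact qs_eq hF T e (hcs _ (hcc g hg)) (hccg g hg) n (one_pow _) (one_smul _ _).symm
    · intro g hg g' hg' hgg
      rw [Finset.mem_coe] at hg hg'
      simp only [Prod.mk.injEq] at hgg
      have h2 : gm g * kry T e = gm g' * kry T e := by
        rw [mul_kry T e (hccg g hg), mul_kry T e (hccg g' hg'), hgg.1, hgg.2]
      have h3 : gm g = gm g' := by
        have h4 := congrArg (· * E') h2
        simpa only [mul_assoc, hE, mul_one] using h4
      exact Subtype.ext (Units.ext h3)
  refine h1.trans ?_
  have h2 : D.card ≤ ∑ v : Fin n → F, List.count (qs enc q T v n v) tg := by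
    rw [hD, Finset.card_filter, Finset.sum_product_right]
    refine Finset.sum_le_sum fun v _ => ?_
    rw [← htg, List.count, List.countP_map, List.countP_eq_length_filter, ← Finset.card_filter]
    refine le_trans (Finset.card_le_card ?_) (List.toFinset_card_le _)
    intro c hc
    rw [mem_filter, List.mem_toFinset] at hc
    rw [List.mem_toFinset, List.mem_filter]
    exact ⟨hc.1, beq_iff_eq.2 hc.2.symm⟩
  refine h2.trans ?_
  have h3 : ∀ v : Fin n → F, List.count (qs enc q T v n v) tg
      ≤ go O R (L enc v ++ []) n (L enc v ++ []) tg := by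
    intro v
    rw [List.append_nil, ← hR]
    exact go_spec H T v n v tg
  exact (Finset.sum_le_sum fun v _ => h3 v).trans (cnt_spec hels R tg n n [])

omit [Fintype F] [DecidableEq F] in
theorem kry_eq {T : Matrix (Fin n) (Fin n) F} {e : Fin n → F} (E : Matrix (Fin n) (Fin n) F)
    (h0 : ∀ h : 0 < n, (fun i => E i ⟨0, h⟩) = e)
    (h : ∀ j : Fin n, ∀ hj : (j : ℕ) + 1 < n, T *ᵥ (fun i => E i j) = fun i => E i ⟨j + 1, hj⟩) :
    kry T e = E := by
  have key : ∀ k : ℕ, ∀ hk : k < n, (T ^ k) *ᵥ e = fun i => E i ⟨k, hk⟩ := by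
    intro k
    induction k with
    | zero => intro hk; rw [pow_zero, Matrix.one_mulVec, h0 hk]
    | succ k ih =>
      intro hk
      rw [pow_succ', ← Matrix.mulVec_mulVec, ih (by omega)]
      exact h ⟨k, by omega⟩ hk
  ext i j
  exact congrFun (key j j.2) i

/-- the targets, computed with the raw operations -/
def tgL (O : Ops α) (T : List (List α)) (e : List α) (c : α) : ℕ → α → List α → List α
  | 0, _, _ => []
  | k + 1, d, w => O.mul d (dotL O e (w.map O.cj)) :: tgL O T e c k (O.mul c d) (T.map fun r => dotL O r w)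

omit [Fintype F] [DecidableEq F] in
theorem tgts_eq (H : Law O q enc) (T : Matrix (Fin n) (Fin n) F) (e : Fin n → F) (c : F) (k : ℕ) (d : F)
    (w : Fin n → F) :
    tgts enc q T e c k d w = tgL O (rows enc T) (L enc e) (enc c) k (enc d) (L enc w) := by
  induction k generalizing d w with
  | zero => rfl
  | succ k ih =>
    rw [tgts, tgL, herm_spec H, mv_spec H, H.mul, H.mul, ih]

/-- **The count**, all computations with the raw operations. -/
theorem card_le' (H : Law O q enc) (hF : Fintype.card F = q ^ 2) {els : List α}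
    (hels : ∀ f : α → ℕ, ∑ a : F, f (enc a) ≤ els.foldr (fun a s => f a + s) 0)
    {T : Matrix (Fin n) (Fin n) F} {e : Fin n → F} {E E' : Matrix (Fin n) (Fin n) F}
    (h0 : ∀ h : 0 < n, (fun i => E i ⟨0, h⟩) = e)
    (hj : ∀ j : Fin n, ∀ hj : (j : ℕ) + 1 < n, T *ᵥ (fun i => E i j) = fun i => E i ⟨j + 1, hj⟩)
    (hE : E * E' = 1) {cs : List F} (hcs : ∀ c ∈ cs, c ^ (q + 1) = 1)
    {R : List (List α)} (hR : rows enc T = R) {m : ℕ} {tg : List (List α)}
    (htg : cs.map (fun c => tgL O R (L enc e) (enc c) n (enc 1) (L enc e)) = tg)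
    (hm : cnt O els R tg n n [] ≤ m) (P : Finset (GU n F q))
    (hP : ∀ g ∈ P, ∃ c ∈ cs, gm g * T = c • (T * gm g)) :
    P.card ≤ m := by
  refine (card_le H hF hels T e (E' := E') ?_ hcs hR (tg := tg) ?_ P hP).trans hm
  · rw [kry_eq E h0 hj, hE]
  · rw [← htg, ← hR]
    exact List.map_congr_left fun c _ => tgts_eq H T e c n 1 e

end unitary

end Cfsg.Agent.H933.OZ.Cyc
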