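import Cfsg.Agent.H933.OZ.Orb

/-!
# Orbit data and their cost (helper933, for S4842)
-/

set_option autoImplicit false

namespace Cfsg.Agent.H933.OZ.Orb

open Cfsg Matrix Finset Cyc Cfsg.Agent.LieClassical Cfsg.Agent.CharactersDeep

variable {F : Type} [Field F] {q n : ℕ}

theorem Pw.mod {t : SU n F q} {N a b : ℕ} (hN : pr t ^ N = 1) (h : Pw t a) (hab : a % N = b % N) :
    Pw t b := h.congr (by rw [← pow_mod hN a, ← pow_mod hN b, hab])

theorem GPw.mod {t : SU n F q} {N a b : ℕ} (hN : pr t ^ N = 1) (h : GPw t a) (hab : a % N = b % N) :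
    GPw t b := h.congr (by rw [← pow_mod hN a, ← pow_mod hN b, hab])

/-- the data of an orbit -/
structure Dat [Fintype F] (t : SU n F q) (N m : ℕ) : Prop where
  gal : ∀ y ∈ orb t, ∀ k : ℕ, k.Coprime (Nat.card (PSU n F q)) → y ^ k ∈ orb t ∨ (y ^ k)⁻¹ ∈ orb t
  pow : ∀ y ∈ orb t, y ^ N = 1
  card : Nat.card (GU n F q) ≤ m * (orb t).card
  conj : ∀ y ∈ orb t, ∀ k : ℕ, k.Coprime (Nat.card (PSU n F q)) → IsConj y (y ^ k) ∨ IsConj y⁻¹ (y ^ k)

/-- rational -/
def Rat [Fintype F] (t : SU n F q) : Prop :=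
  ∀ y ∈ orb t, ∀ k : ℕ, k.Coprime (Nat.card (PSU n F q)) → IsConj y (y ^ k)

theorem coprime_mod {N M k : ℕ} (hN : N ∣ M) (hk : k.Coprime M) : (k % N).Coprime N := by
  have h1 : k.Coprime N := hk.coprime_dvd_right hN
  rwa [Nat.Coprime, ← Nat.gcd_rec, Nat.gcd_comm]

theorem mem_orb_of_isConj [Fintype F] {t : SU n F q} {y z : PSU n F q} (hy : y ∈ orb t)
    (h : IsConj y z) : z ∈ orb t := by
  obtain ⟨g, rfl⟩ := mem_orb.1 hy
  obtain ⟨c, rfl⟩ := isConj_iff.1 h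
  obtain ⟨s, rfl⟩ := QuotientGroup.mk'_surjective _ c
  refine mem_orb.2 ⟨ofSU s * g, ?_⟩
  rw [cg_mul, cg_ofSU, map_mul, map_mul, map_inv]

theorem Dat.of [Fintype F] {t : SU n F q} {N m : ℕ} (hNG : N ∣ Nat.card (PSU n F q)) (hN0 : 0 < N)
    (hN : pr t ^ N = 1) (hcard : Nat.card (GU n F q) ≤ m * (orb t).card)
    (hP : ∀ j < N, j.Coprime N → Pw t j ∨ Pw t (N - j)) :
    Dat t N m := by
  have hconj : ∀ y ∈ orb t, ∀ k : ℕ, k.Coprime (Nat.card (PSU n F q)) →
      IsConj y (y ^ k) ∨ IsConj y⁻¹ (y ^ k) := by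
    intro y hy k hk
    rcases hP (k % N) (Nat.mod_lt _ hN0) (coprime_mod hNG hk) with h | h
    · exact Or.inl (isConj_pow (h.mod hN (Nat.mod_mod _ _)) hy)
    · refine Or.inr (isConj_inv_pow h ?_ hy)
      rw [pow_add, ← pow_mod hN k, ← pow_add, Nat.sub_add_cancel (Nat.mod_lt _ hN0).le, hN]
  refine ⟨fun y hy k hk => ?_, fun _ hy => pow_eq_one hN hy, hcard, hconj⟩
  rcases hconj y hy k hk with h | h
  · exact Or.inl (mem_orb_of_isConj hy h)
  · refine Or.inr (mem_orb_of_isConj hy ?_)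
    obtain ⟨c, hc⟩ := isConj_iff.1 h
    exact isConj_iff.2 ⟨c, by rw [← hc]; group⟩

theorem Rat.of [Fintype F] {t : SU n F q} {N : ℕ} (hNG : N ∣ Nat.card (PSU n F q)) (hN0 : 0 < N)
    (hN : pr t ^ N = 1) (hP : ∀ j < N, j.Coprime N → Pw t j) : Rat t := fun _ hy k hk =>
  isConj_pow ((hP (k % N) (Nat.mod_lt _ hN0) (coprime_mod hNG hk)).mod hN (Nat.mod_mod _ _)) hy

/-- the orbit and the inverses -/
theorem gal_two [Fintype F] {t : SU n F q} {N m : ℕ} [DecidableEq (PSU n F q)] (D : Dat t N m) :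
    H695.OneZero.Gal (orb t ∪ (orb t).image fun y => y⁻¹) := by
  intro y hy k hk
  rw [mem_union, mem_image] at hy ⊢
  rcases hy with hy | ⟨z, hz, rfl⟩
  · rcases D.gal y hy k hk with h | h
    · exact Or.inl h
    · exact Or.inr ⟨_, h, inv_inv _⟩
  · rcases D.gal z hz k hk with h | h
    · exact Or.inr ⟨_, h, (inv_pow z k).symm⟩
    · exact Or.inl (by rwa [inv_pow])

theorem normSq_inv {G : Type} [Group G] [Finite G] (χ : IrrCharacter G) (y : G) :
    Complex.normSq ((χ : G → ℂ) y⁻¹) = Complex.normSq ((χ : G → ℂ) y) := by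
  rw [apply_inv, Complex.normSq_conj]

/-- **Cost of an orbit.** -/
theorem Dat.cost_aux [Fintype F] {t : SU n F q} {N m : ℕ} [DecidableEq (PSU n F q)] (D : Dat t N m)
    {χ : IrrCharacter (PSU n F q)}
    {x : PSU n F q} (h : H732.VZ.One χ x) (hx : ∀ y ∈ orb t, ¬ IsConj x y) {k : ℕ}
    (hk : ∀ y ∈ orb t, ((k : ℝ) + 1) ≤ Complex.normSq ((χ : PSU n F q → ℂ) y)) :
    k * (orb t ∪ (orb t).image fun y => y⁻¹).card
      * Nat.card (Subgroup.centralizer ({x} : Set (PSU n F q))) ≤ Nat.card (PSU n F q) := by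
  have := Fintype.ofFinite (PSU n F q)
  refine OZ.cost h (gal_two D) ?_ ?_
  · intro y hy
    rw [mem_union, mem_image] at hy
    rcases hy with hy | ⟨z, hz, rfl⟩
    · exact hx y hy
    · intro hxz
      have h1 : (χ : PSU n F q → ℂ) z⁻¹ = 0 := by rw [← apply_eq_of_isConj χ hxz, h.zero]
      rw [apply_inv, map_eq_zero] at h1
      exact hx z hz (h.uniq z h1)
  · intro y hy
    rw [mem_union, mem_image] at hy
    rcases hy with hy | ⟨z, hz, rfl⟩
    · exact hk y hy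
    · rw [normSq_inv]
      exact hk z hz

/-- **Cost of an orbit.** -/
theorem Dat.cost [Fintype F] {t : SU n F q} {N m : ℕ} (D : Dat t N m) {χ : IrrCharacter (PSU n F q)}
    {x : PSU n F q} (h : H732.VZ.One χ x) (hx : ∀ y ∈ orb t, ¬ IsConj x y) {k : ℕ}
    (hk : ∀ y ∈ orb t, ((k : ℝ) + 1) ≤ Complex.normSq ((χ : PSU n F q → ℂ) y)) :
    k * Nat.card (GU n F q) * Nat.card (Subgroup.centralizer ({x} : Set (PSU n F q)))
      ≤ m * Nat.card (PSU n F q) := by
  classical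
  have h1 := D.cost_aux h hx hk
  have h2 : (orb t).card ≤ (orb t ∪ (orb t).image fun y => y⁻¹).card :=
    Finset.card_le_card subset_union_left
  calc k * Nat.card (GU n F q) * Nat.card (Subgroup.centralizer ({x} : Set (PSU n F q)))
      ≤ k * (m * (orb t ∪ (orb t).image fun y => y⁻¹).card)
          * Nat.card (Subgroup.centralizer ({x} : Set (PSU n F q))) :=
        Nat.mul_le_mul_right _ (Nat.mul_le_mul_left _ (D.card.trans (Nat.mul_le_mul_left _ h2)))
    _ = m * (k * (orb t ∪ (orb t).image fun y => y⁻¹).card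
          * Nat.card (Subgroup.centralizer ({x} : Set (PSU n F q)))) := by ring
    _ ≤ _ := Nat.mul_le_mul_left _ h1

/-- **Cost of an orbit of non-real elements.** -/
theorem Dat.cost_two [Fintype F] {t : SU n F q} {N m : ℕ} (D : Dat t N m)
    (hinv : ∀ y ∈ orb t, y⁻¹ ∉ orb t) {χ : IrrCharacter (PSU n F q)}
    {x : PSU n F q} (h : H732.VZ.One χ x) (hx : ∀ y ∈ orb t, ¬ IsConj x y) {k : ℕ}
    (hk : ∀ y ∈ orb t, ((k : ℝ) + 1) ≤ Complex.normSq ((χ : PSU n F q → ℂ) y)) :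
    2 * k * Nat.card (GU n F q) * Nat.card (Subgroup.centralizer ({x} : Set (PSU n F q)))
      ≤ m * Nat.card (PSU n F q) := by
  classical
  have h1 := D.cost_aux h hx hk
  have h2 : (orb t ∪ (orb t).image fun y => y⁻¹).card = 2 * (orb t).card := by
    rw [Finset.card_union_of_disjoint, Finset.card_image_of_injective _ inv_injective, two_mul]
    rw [Finset.disjoint_left]
    intro y hy hy'
    obtain ⟨z, hz, rfl⟩ := mem_image.1 hy'
    exact hinv z hz hy
  rw [h2] at h1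
  calc 2 * k * Nat.card (GU n F q) * Nat.card (Subgroup.centralizer ({x} : Set (PSU n F q)))
      ≤ 2 * k * (m * (orb t).card)
          * Nat.card (Subgroup.centralizer ({x} : Set (PSU n F q))) :=
        Nat.mul_le_mul_right _ (Nat.mul_le_mul_left _ D.card)
    _ = m * (k * (2 * (orb t).card)
          * Nat.card (Subgroup.centralizer ({x} : Set (PSU n F q)))) := by ring
    _ ≤ _ := Nat.mul_le_mul_left _ h1

/-- the squared absolute value on an orbit of `r`-elements -/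
theorem Dat.normSq [Fintype F] {t : SU n F q} {r k m : ℕ} (D : Dat t (r ^ k) m) (hr : r.Prime)
    (χ : IrrCharacter (PSU n F q)) {y : PSU n F q} (hy : y ∈ orb t) :
    ∃ a : ℕ, Complex.normSq ((χ : PSU n F q → ℂ) y) = a ∧
      (r : ℤ) ∣ (a : ℤ) - (charDegree (χ : PSU n F q → ℂ) : ℤ) ^ 2 := by
  obtain ⟨a, ha, ha'⟩ := exists_nat_of_conj χ (D.conj y hy)
  exact ⟨a, ha, dvd_sub_sq hr χ (D.pow y hy) ha'⟩

/-- the value on a rational orbit of `r`-elements -/
theorem Dat.val [Fintype F] {t : SU n F q} {r k m : ℕ} (D : Dat t (r ^ k) m) (hR : Rat t) (hr : r.Prime)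
    (χ : IrrCharacter (PSU n F q)) {y : PSU n F q} (hy : y ∈ orb t) :
    ∃ a : ℤ, (χ : PSU n F q → ℂ) y = a ∧ (r : ℤ) ∣ a - (charDegree (χ : PSU n F q → ℂ) : ℤ) := by
  obtain ⟨a, ha⟩ := exists_int_of_conj χ (hR y hy)
  exact ⟨a, ha, dvd_sub_deg hr χ (D.pow y hy) ha⟩

/-- `r` divides the degree, no zero on the rational orbit: `|χ|² ≥ r²` there. -/
theorem Dat.sq_le [Fintype F] {t : SU n F q} {r k m : ℕ} (D : Dat t (r ^ k) m) (hR : Rat t) (hr : r.Prime)
    {χ : IrrCharacter (PSU n F q)} {x : PSU n F q} (h : H732.VZ.One χ x) (hx : ∀ y ∈ orb t, ¬ IsConj x y)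
    (hd : r ∣ charDegree (χ : PSU n F q → ℂ)) {y : PSU n F q} (hy : y ∈ orb t) :
    ((r : ℝ) ^ 2) ≤ Complex.normSq ((χ : PSU n F q → ℂ) y) := by
  obtain ⟨a, ha, hra⟩ := D.val hR hr χ hy
  have h0 : a ≠ 0 := by
    rintro rfl
    exact hx y hy (h.uniq y (by rw [ha, Int.cast_zero]))
  have h1 : (r : ℤ) ∣ a := by
    have h2 : (r : ℤ) ∣ (charDegree (χ : PSU n F q → ℂ) : ℤ) := by exact_mod_cast hd
    simpa using dvd_add hra h2
  have h2 : (r : ℤ) ≤ |a| := Int.le_of_dvd (abs_pos.2 h0) ((dvd_abs _ _).2 h1)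
  have h3 : Complex.normSq ((χ : PSU n F q → ℂ) y) = ((a : ℝ)) ^ 2 := by
    rw [ha, Complex.normSq_intCast]
    ring
  rw [h3, ← sq_abs (a : ℝ)]
  have h4 : (r : ℝ) ≤ |(a : ℝ)| := by exact_mod_cast h2
  exact pow_le_pow_left₀ (Nat.cast_nonneg _) h4 2

/-- `|χ|²` on an orbit of `r`-elements is at least `s` if no smaller positive number is congruent to
`χ(1)²`. -/
theorem Dat.le_normSq [Fintype F] {t : SU n F q} {r k m : ℕ} (D : Dat t (r ^ k) m) (hr : r.Prime)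
    {χ : IrrCharacter (PSU n F q)} {x : PSU n F q} (h : H732.VZ.One χ x) (hx : ∀ y ∈ orb t, ¬ IsConj x y)
    {s : ℕ} (hs : ∀ a : ℕ, 0 < a → a < s → ¬ (r : ℤ) ∣ (a : ℤ) - (charDegree (χ : PSU n F q → ℂ) : ℤ) ^ 2)
    {y : PSU n F q} (hy : y ∈ orb t) : (s : ℝ) ≤ Complex.normSq ((χ : PSU n F q → ℂ) y) := by
  obtain ⟨a, ha, hra⟩ := D.normSq hr χ hy
  rw [ha]
  have h0 : a ≠ 0 := by
    rintro rfl
    rw [Nat.cast_zero] at ha
    exact hx y hy (h.uniq y (Complex.normSq_eq_zero.1 ha))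
  by_contra hcon
  rw [not_le] at hcon
  exact hs a (Nat.pos_of_ne_zero h0) (by exact_mod_cast hcon) hra

theorem pow_ne_one [Fintype F] {t : SU n F q} {k : ℕ} (ht : pr t ^ k ≠ 1) {y : PSU n F q} (hy : y ∈ orb t) :
    y ^ k ≠ 1 := by
  obtain ⟨g, rfl⟩ := mem_orb.1 hy
  intro h
  apply ht
  have h1 : pr (cg g (t ^ k)) = pr 1 := by rw [map_pow, map_pow, h, map_one]
  have h2 := pr_cg g⁻¹ h1
  rw [← cg_mul, inv_mul_cancel, cg_one, map_one, map_one, map_pow] at h2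
  exact h2

theorem trace_cg (g : GU n F q) (t : SU n F q) : (sm (cg g t)).trace = (sm t).trace := by
  rw [sm_cg, Matrix.trace_mul_comm, ← mul_assoc, gm_inv_mul, one_mul]

theorem trace_of_pr_eq [Fintype F] (hF : Fintype.card F = q ^ 2) (hn : 3 ≤ n) {s t : SU n F q}
    (h : pr s = pr t) : ∃ c : F, c ^ n = 1 ∧ c ^ (q + 1) = 1 ∧ (sm t).trace = c * (sm s).trace := by
  rw [pr_eq_iff] at h
  obtain ⟨c, hc1, hc2, hc⟩ := (SUBasic.mem_center_SU_iff hF hn _).1 h
  refine ⟨c, hc1, hc2, ?_⟩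
  have h1 : t = s * SUBasic.suScalar q c hc1 hc2 := by rw [← hc, mul_inv_cancel_left]
  rw [h1]
  have h2 : sm (s * SUBasic.suScalar q c hc1 hc2) = sm s * Matrix.diagonal fun _ => c := rfl
  rw [h2, ← Matrix.smul_one_eq_diagonal, Matrix.mul_smul, mul_one, Matrix.trace_smul, smul_eq_mul]

/-- An orbit without inverses, by traces. -/
theorem inv_notMem [Fintype F] (hF : Fintype.card F = q ^ 2) (hn : 3 ≤ n) {t : SU n F q}
    (h : ∀ c : F, c ^ n = 1 → c ^ (q + 1) = 1 → (sm t).trace ≠ c * (sm t⁻¹).trace) {y : PSU n F q}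
    (hy : y ∈ orb t) : y⁻¹ ∉ orb t := by
  intro hy'
  obtain ⟨g, rfl⟩ := mem_orb.1 hy
  obtain ⟨g', hg'⟩ := mem_orb.1 hy'
  rw [← map_inv, ← map_inv] at hg'
  obtain ⟨c, hc1, hc2, hc⟩ := trace_of_pr_eq hF hn hg'.symm
  rw [trace_cg, trace_cg] at hc
  exact h c hc1 hc2 hc

/-- The zero class has a centralizer of order at least four. -/
theorem four_le {G : Type} [Group G] [Finite G]
    (h2 : 2 ^ 2 ∣ Nat.card G) (h3 : 3 ^ 2 ∣ Nat.card G) {χ : IrrCharacter G} {x : G}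
    (h : H732.VZ.One χ x) : 4 ≤ Nat.card (Subgroup.centralizer ({x} : Set G)) := by
  have hx1 : x ≠ 1 := by
    rintro rfl
    have h1 := h.zero
    have h4 : (charDegree (χ : G → ℂ) : ℂ) = 0 := by
      rw [H686.CharKit.charDegree_irr χ]
      exact h1
    have h5 : 0 < charDegree (χ : G → ℂ) := H686.CharKit.charDegree_pos χ
    rw [Nat.cast_eq_zero] at h4
    omega
  have hlt : 1 < Nat.card (Subgroup.centralizer ({x} : Set G)) := by
    have hn : Nontrivial (Subgroup.centralizer ({x} : Set G)) := by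
      refine ⟨⟨⟨x, Subgroup.mem_centralizer_singleton_iff.2 rfl⟩, 1, fun h => hx1 (congrArg Subtype.val h)⟩⟩
    exact Finite.one_lt_card_iff_nontrivial.2 hn
  have h4 := card_centralizer_ne Nat.prime_two h2 x
  have h5 := card_centralizer_ne Nat.prime_three h3 x
  omega

end Cfsg.Agent.H933.OZ.Orb
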