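import Cfsg.Agent.H933.OZ.Dat
import Cfsg.Agent.H604.OZ.Basic

/-!
# Closing lemmas for the small unitary groups (helper933, for S4842)
-/

set_option autoImplicit false

namespace Cfsg.Agent.H933.OZ

open Cfsg Cfsg.Agent.Characters Cfsg.Agent.CharactersDeep Cfsg.Agent.H732.VZ Finset
open Cfsg.Agent.H686.CharKit

universe u

variable {G : Type u} [Group G]

theorem pow_eq_one_of_isConj {x z : G} (h : IsConj x z) {k : ℕ} (hz : z ^ k = 1) : x ^ k = 1 := by
  obtain ⟨c, hc⟩ := isConj_iff.1 h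
  have h1 : (c * x * c⁻¹) ^ k = 1 := by rw [hc, hz]
  rw [conj_pow] at h1
  have h2 : c⁻¹ * (c * x ^ k * c⁻¹) * c = 1 := by rw [h1]; group
  rw [← h2]
  group

/-- **Burnside.** Degree a prime power: the zero class has order the prime. -/
theorem pow_eq_one_of_deg [Finite G] [IsSimpleGroup G] (hna : ¬ IsMulCommutative G) {r : ℕ} (hr : r.Prime)
    (hG : r ∣ Nat.card G) {χ : IrrCharacter G} {x : G} (h : One χ x) {i : ℕ}
    (hd : charDegree (χ : G → ℂ) = r ^ i) : x ^ r = 1 := by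
  have : Fact r.Prime := ⟨hr⟩
  let P : Sylow r G := default
  have hPr : r ∣ Nat.card P := by
    rw [P.card_eq_multiplicity]
    exact dvd_pow_self r (hr.factorization_pos_of_dvd Nat.card_pos.ne' hG).ne'
  have : Nontrivial P := by
    rw [← Finite.one_lt_card_iff_nontrivial]
    exact lt_of_lt_of_le hr.one_lt (Nat.le_of_dvd Nat.card_pos hPr)
  have hcen : Nontrivial (Subgroup.center P) := P.isPGroup'.center_nontrivial
  have hcp : r ∣ Nat.card (Subgroup.center P) := by
    have h1 := (P.isPGroup'.to_subgroup (Subgroup.center P)).card_eq_or_dvd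
    rcases h1 with h1 | h1
    · exact absurd h1 (Finite.one_lt_card_iff_nontrivial.2 hcen).ne'
    · exact h1
  obtain ⟨⟨z, hz⟩, hz1⟩ := exists_prime_orderOf_dvd_card' (p := r) hcp
  have hzr : orderOf (z : G) = r := by
    rw [Subgroup.orderOf_mk] at hz1
    exact (Subgroup.orderOf_coe z).trans hz1
  have hzc : ∀ y ∈ (P : Subgroup G), y * (z : G) = (z : G) * y := fun y hy =>
    congrArg Subtype.val (Subgroup.mem_center_iff.1 hz ⟨y, hy⟩)
  have hz0 : (z : G) ≠ 1 := by
    intro h1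
    rw [h1, orderOf_one] at hzr
    exact hr.one_lt.ne hzr
  have hPC : (P : Subgroup G) ≤ Subgroup.centralizer ({(z : G)} : Set G) := by
    intro y hy
    rw [Subgroup.mem_centralizer_singleton_iff]
    exact hzc y hy
  have hidx : ¬ r ∣ (Subgroup.centralizer ({(z : G)} : Set G)).index := fun h1 =>
    P.not_dvd_index (h1.trans (Subgroup.index_dvd_of_le hPC))
  have hzp : (z : G) ^ r = 1 := orderOf_dvd_iff_pow_eq_one.1 hzr.dvd
  refine pow_eq_one_of_isConj (zero_of_coprime hna χ h hz0 ?_) hzp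
  rw [hd]
  exact Nat.Coprime.pow_right _ ((hr.coprime_iff_not_dvd.2 hidx).symm)

/-- Exactly dividing prime: the zero class has that order. -/
theorem pow_eq_one_of_dvd [Finite G] {r n : ℕ} (hr : r.Prime) (hG : Nat.card G = r * n) (hn : ¬ r ∣ n)
    {χ : IrrCharacter G} {x : G} (h : One χ x) (hd : r ∣ charDegree (χ : G → ℂ)) : x ^ r = 1 := by
  have : Fact r.Prime := ⟨hr⟩
  obtain ⟨z, hz⟩ := exists_prime_orderOf_dvd_card' (G := G) r (by rw [hG]; exact Dvd.intro _ rfl)
  have h1 := zero_of_defect hr (a := 1) (by rw [pow_one]; exact hG) hn χ (by rwa [pow_one]) (g := z)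
    (by rw [hz])
  refine pow_eq_one_of_isConj (h.uniq z h1) ?_
  rw [← hz]
  exact pow_orderOf_eq_one z

/-- The degree is a prime power if every prime divisor `r` of it comes with an `r`-power killing `x`. -/
theorem deg_prime_pow [Finite G] {χ : IrrCharacter G} {x : G} (h : One χ x)
    (H : ∀ r : ℕ, r.Prime → r ∣ charDegree (χ : G → ℂ) → ∃ k : ℕ, x ^ (r ^ k) = 1) {r : ℕ} (hr : r.Prime)
    (hrd : r ∣ charDegree (χ : G → ℂ)) : ∃ i : ℕ, charDegree (χ : G → ℂ) = r ^ i := by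
  refine ⟨_, Nat.eq_prime_pow_of_unique_prime_dvd (charDegree_pos χ).ne' fun {s} hs hsd => ?_⟩
  by_contra hne
  obtain ⟨k, hk⟩ := H r hr hrd
  obtain ⟨l, hl⟩ := H s hs hsd
  have h1 : (r ^ k).Coprime (s ^ l) := Nat.Coprime.pow _ _ ((Nat.coprime_primes hr hs).2 (Ne.symm hne))
  have h2 : orderOf x ∣ Nat.gcd (r ^ k) (s ^ l) :=
    Nat.dvd_gcd (orderOf_dvd_of_pow_eq_one hk) (orderOf_dvd_of_pow_eq_one hl)
  rw [h1.gcd_eq_one, Nat.dvd_one, orderOf_eq_one_iff] at h2
  exact H604.OZ.ne_one h h2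

end Cfsg.Agent.H933.OZ
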