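import Cfsg.Agent.H933.OZ.U43Data
import Cfsg.Agent.H933.OZ.Fin
import Cfsg.Agent.H730.OZ.Asm
import Cfsg.Agent.SporadicStructure.PsuMatch
import Cfsg.Agent.S0277
import Cfsg.Agent.S0283

/-!
# S4842: the row `U_4(3)` (helper933)
-/

set_option autoImplicit false

namespace Cfsg.Agent.H933.OZ.U43

open Cfsg Cfsg.Agent.Characters Cfsg.Agent.CharactersDeep Cfsg.Agent.H732.VZ Orb
open Cfsg.Agent.H686.CharKit Cfsg.Agent.SporadicStructure.FieldNine

theorem card_GU : Nat.card (GU 4 K9 3) = 52254720 := by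
  have h := S0277.result hF 4
  norm_num [Finset.prod_range_succ, Nat.even_iff] at h
  exact h

instance simp43 : IsSimpleGroup (PSU 4 K9 3) := Cfsg.Agent.S0283.result hF 4 (by norm_num) (by omega)

theorem not_comm : ¬ IsMulCommutative (PSU 4 K9 3) := by
  intro h
  let _ : CommGroup (PSU 4 K9 3) := { mul_comm := fun a b => h.is_comm.comm a b }
  have h1 : (Nat.card (PSU 4 K9 3)).Prime := IsSimpleGroup.prime_card
  rw [card_G] at h1
  exact absurd h1 (by norm_num)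

theorem four_le_c {χ : IrrCharacter (PSU 4 K9 3)} {x : PSU 4 K9 3} (h : One χ x) :
    4 ≤ Nat.card (Subgroup.centralizer ({x} : Set (PSU 4 K9 3))) :=
  four_le (by rw [card_G]; norm_num) (by rw [card_G]; norm_num) h

/-- even degree -/
theorem even {χ : IrrCharacter (PSU 4 K9 3)} {x : PSU 4 K9 3} (h : One χ x)
    (hd : 2 ∣ charDegree (χ : PSU 4 K9 3 → ℂ)) : ∃ y ∈ orb t8, IsConj x y := by
  by_contra hcon
  push Not at hcon
  have h1 := t8_dat.cost h hcon (k := 3) fun y hy =>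
    le_trans (by norm_num) (t8_dat.sq_le t8_rat Nat.prime_two h hcon hd hy)
  rw [card_GU, card_G] at h1
  have h2 := four_le_c h
  omega

/-- degree divisible by three -/
theorem three {χ : IrrCharacter (PSU 4 K9 3)} {x : PSU 4 K9 3} (h : One χ x)
    (hd : 3 ∣ charDegree (χ : PSU 4 K9 3 → ℂ)) : ∃ y ∈ orb u9, IsConj x y := by
  by_contra hcon
  push Not at hcon
  have hs : ∀ a : ℕ, 0 < a → a < 3 →
      ¬ ((3 : ℕ) : ℤ) ∣ (a : ℤ) - (charDegree (χ : PSU 4 K9 3 → ℂ) : ℤ) ^ 2 := by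
    intro a ha0 ha3 hdv
    have h1 : ((3 : ℕ) : ℤ) ∣ (charDegree (χ : PSU 4 K9 3 → ℂ) : ℤ) ^ 2 :=
      Dvd.dvd.pow (by exact_mod_cast hd) two_ne_zero
    have h2 : ((3 : ℕ) : ℤ) ∣ (a : ℤ) := by simpa using dvd_add hdv h1
    omega
  have h1 := u9_dat.cost h hcon (k := 2) fun y hy =>
    le_trans (by norm_num) (u9_dat.le_normSq Nat.prime_three h hcon hs hy)
  rw [card_GU, card_G] at h1
  have h2 := four_le_c h
  omega

theorem notMem_orb {χ : IrrCharacter (PSU 4 K9 3)} {x : PSU 4 K9 3} (h : One χ x) {r s : ℕ}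
    (hrs : r.Coprime s) (hx : x ^ r = 1) {t : SU 4 K9 3} {m : ℕ} (D : Dat t s m) :
    ∀ y ∈ orb t, ¬ IsConj x y := by
  intro y hy hxy
  have h1 := pow_eq_one_of_isConj hxy (D.pow y hy)
  have h2 : orderOf x ∣ Nat.gcd r s :=
    Nat.dvd_gcd (orderOf_dvd_of_pow_eq_one hx) (orderOf_dvd_of_pow_eq_one h1)
  rw [hrs.gcd_eq_one, Nat.dvd_one, orderOf_eq_one_iff] at h2
  exact H604.OZ.ne_one h h2

/-- degree five -/
theorem five {χ : IrrCharacter (PSU 4 K9 3)} {x : PSU 4 K9 3} (h : One χ x)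
    (hx5 : x ^ 5 = 1) (hd : charDegree (χ : PSU 4 K9 3 → ℂ) = 5) : False := by
  have hcon := notMem_orb h (by norm_num) hx5 z7_dat
  have hs : ∀ a : ℕ, 0 < a → a < 4 →
      ¬ ((7 : ℕ) : ℤ) ∣ (a : ℤ) - (charDegree (χ : PSU 4 K9 3 → ℂ) : ℤ) ^ 2 := by
    intro a ha0 ha3 hdv
    rw [hd] at hdv
    push_cast at hdv
    omega
  have h1 := z7_dat.cost h hcon (k := 3) fun y hy =>
    le_trans (by norm_num) (z7_dat.le_normSq (by norm_num) h hcon hs hy)
  rw [card_GU, card_G] at h1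
  have h2 := four_le_c h
  omega

/-- degree seven -/
theorem seven {χ : IrrCharacter (PSU 4 K9 3)} {x : PSU 4 K9 3} (h : One χ x)
    (hx7 : x ^ 7 = 1) (hd : charDegree (χ : PSU 4 K9 3 → ℂ) = 7) : False := by
  have hcon := notMem_orb h (by norm_num) hx7 t5_dat
  have hs : ∀ a : ℕ, 0 < a → a < 4 →
      ¬ ((5 : ℕ) : ℤ) ∣ (a : ℤ) - (charDegree (χ : PSU 4 K9 3 → ℂ) : ℤ) ^ 2 := by
    intro a ha0 ha3 hdv
    rw [hd] at hdv
    push_cast at hdv
    omega
  have h1 := t5_dat.cost h hcon (k := 3) fun y hy =>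
    le_trans (by norm_num) (t5_dat.le_normSq (by norm_num) h hcon hs hy)
  rw [card_GU, card_G] at h1
  have h2 := four_le_c h
  omega

theorem none {χ : IrrCharacter (PSU 4 K9 3)} {x : PSU 4 K9 3} (h : One χ x) : False := by
  have hd1 := H604.OZ.one_lt_deg h
  have hdvd := H604.OZ.deg_dvd χ
  have hfac : Nat.card (PSU 4 K9 3) = 2 ^ 7 * 3 ^ 6 * 5 * 7 := by rw [card_G]; norm_num
  have hmem : ∀ r : ℕ, r.Prime → r ∣ charDegree (χ : PSU 4 K9 3 → ℂ) → r = 2 ∨ r = 3 ∨ r = 5 ∨ r = 7 := by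
    intro r hr hrd
    have h1 := hrd.trans hdvd
    rw [hfac] at h1
    simp only [hr.dvd_mul] at h1
    rcases h1 with ((h1 | h1) | h1) | h1
    · exact Or.inl ((Nat.prime_dvd_prime_iff_eq hr Nat.prime_two).1 (hr.dvd_of_dvd_pow h1))
    · exact Or.inr (Or.inl ((Nat.prime_dvd_prime_iff_eq hr Nat.prime_three).1 (hr.dvd_of_dvd_pow h1)))
    · exact Or.inr (Or.inr (Or.inl ((Nat.prime_dvd_prime_iff_eq hr Nat.prime_five).1 h1)))
    · exact Or.inr (Or.inr (Or.inr ((Nat.prime_dvd_prime_iff_eq hr (by norm_num)).1 h1)))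
  have hex : ∀ r : ℕ, r = 5 ∨ r = 7 → r ∣ charDegree (χ : PSU 4 K9 3 → ℂ) → x ^ r = 1 := by
    rintro r (rfl | rfl) hrd
    · exact pow_eq_one_of_dvd (n := 2 ^ 7 * 3 ^ 6 * 7) (by norm_num) (by rw [hfac]; norm_num)
        (by norm_num) h hrd
    · exact pow_eq_one_of_dvd (n := 2 ^ 7 * 3 ^ 6 * 5) (by norm_num) (by rw [hfac]; norm_num)
        (by norm_num) h hrd
  have hkill : ∀ r : ℕ, r.Prime → r ∣ charDegree (χ : PSU 4 K9 3 → ℂ) → ∃ k : ℕ, x ^ (r ^ k) = 1 := by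
    intro r hr hrd
    rcases hmem r hr hrd with rfl | rfl | h5
    · obtain ⟨y, hy, hxy⟩ := even h hrd
      exact ⟨3, pow_eq_one_of_isConj hxy (t8_dat.pow y hy)⟩
    · obtain ⟨y, hy, hxy⟩ := three h hrd
      exact ⟨2, pow_eq_one_of_isConj hxy (u9_dat.pow y hy)⟩
    · exact ⟨1, by rw [pow_one]; exact hex r h5 hrd⟩
  obtain ⟨r, hr, hrd⟩ := Nat.exists_prime_and_dvd hd1.ne'
  obtain ⟨i, hi⟩ := deg_prime_pow h hkill hr hrd
  have hxr : x ^ r = 1 := pow_eq_one_of_deg not_comm hr (hrd.trans hdvd) h hi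
  rcases hmem r hr hrd with rfl | rfl | h5
  · obtain ⟨y, hy, hxy⟩ := even h hrd
    refine pow_ne_one t8_ne hy ?_
    have h4 : x ^ (2 * 2) = 1 := by rw [pow_mul, hxr, one_pow]
    exact pow_eq_one_of_isConj hxy.symm h4
  · obtain ⟨y, hy, hxy⟩ := three h hrd
    exact pow_ne_one u9_ne hy (pow_eq_one_of_isConj hxy.symm hxr)
  · have hi1 : i ≤ 1 := by
      by_contra hcon
      have h1 : r ^ 2 ∣ Nat.card (PSU 4 K9 3) := (pow_dvd_pow r (by omega)).trans (hi ▸ hdvd)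
      rw [card_G] at h1
      rcases h5 with rfl | rfl <;> exact absurd h1 (by norm_num)
    have hi0 : i ≠ 0 := by
      rintro rfl
      rw [pow_zero] at hi
      omega
    have h1 : i = 1 := by omega
    rw [h1, pow_one] at hi
    rcases h5 with rfl | rfl
    · exact five h hxr hi
    · exact seven h hxr hi

universe u

/-- **`U_4(3)`** -/
theorem row_u43 {S : Type u} [Group S] [Finite S] {F : Type} [Field F] [Fintype F]
    (hF : Fintype.card F = 3 ^ 2) (e : S ≃* PSU 4 F 3) : H730.OZ.Row S := by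
  obtain ⟨f⟩ := SporadicStructure.PsuMatch.psu_iso_of_card (F := F) (K := K9) (by rw [hF]; rfl) 4 3
  exact H730.OZ.Row.congr (e.trans f) (H604.OZ.row_of fun _ _ h => none h)

end Cfsg.Agent.H933.OZ.U43
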