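import Cfsg.Agent.H933.OZ.Dat
import Cfsg.Agent.H933.OZ.OpsF

import Cfsg.Agent.S0280

/-!
# Orbit data for `PSU 4` over the field with `9` elements (helper933, for S4842; generated)
-/

set_option autoImplicit false

namespace Cfsg.Agent.H933.OZ.U43

open Cfsg Matrix Orb Cyc
open Cfsg.Agent.SporadicStructure.FieldNine

set_option maxRecDepth 100000

abbrev M := Matrix (Fin 4) (Fin 4) K9

def k0 : K9 := K9.mk 0
def k1 : K9 := K9.mk 1
def k2 : K9 := K9.mk 2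
def k3 : K9 := K9.mk 3
def k4 : K9 := K9.mk 4
def k5 : K9 := K9.mk 5
def k6 : K9 := K9.mk 6
def k7 : K9 := K9.mk 7
def k8 : K9 := K9.mk 8

theorem hF : Fintype.card K9 = 3 ^ 2 := rfl

theorem cs_spec : ∀ c : K9, c ^ 4 = 1 → c ^ (3 + 1) = 1 → c ∈ [k1, k2, k3, k6] := by decide +kernel

theorem cs_norm : ∀ c ∈ [k1, k2, k3, k6], c ^ (3 + 1) = 1 := by decide +kernel

theorem card_G : Nat.card (PSU 4 K9 3) = 3265920 := by
  have h := S0280.result hF 4 (by norm_num)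
  norm_num [Finset.prod_range_succ] at h
  omega

def t8M : M := !![k3, k8, k4, k8; k7, k4, k2, k4; k1, k1, k6, k1; k0, k8, k0, k4]
theorem t8_un : t8Mᵀ * t8M.map cj9 = 1 := by decide +kernel
theorem t8_det : t8M.det = 1 := by decide +kernel
/-- element -/
def t8 : SU 4 K9 3 := mkSU cj9_eq t8M t8_un t8_det hF
theorem sm_t8 : sm t8 = t8M := rfl

theorem t8_p1 : t8M ^ 1 = t8M := pow_one _
def t8M2 : M := !![k4, k2, k4, k8; k5, k0, k1, k3; k7, k5, k5, k1; k1, k6, k4, k0]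
theorem t8_m2 : t8M * t8M = t8M2 := by decide +kernel
theorem t8_p2 : t8M ^ 2 = t8M2 :=
  (pow_add t8M 1 1).trans ((congrArg₂ (· * ·) t8_p1 t8_p1).trans t8_m2)
def t8M3 : M := !![k2, k0, k5, k6; k6, k7, k7, k5; k3, k0, k1, k8; k3, k7, k5, k7]
theorem t8_m3 : t8M2 * t8M = t8M3 := by decide +kernel
theorem t8_p3 : t8M ^ 3 = t8M3 :=
  (pow_add t8M 2 1).trans ((congrArg₂ (· * ·) t8_p2 t8_p1).trans t8_m3)
def t8M4 : M := !![k2, k2, k0, k4; k2, k1, k8, k0; k0, k5, k2, k2; k7, k0, k2, k1]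
theorem t8_m4 : t8M3 * t8M = t8M4 := by decide +kernel
theorem t8_p4 : t8M ^ 4 = t8M4 :=
  (pow_add t8M 3 1).trans ((congrArg₂ (· * ·) t8_p3 t8_p1).trans t8_m4)
def t8M5 : M := !![k2, k3, k6, k6; k0, k4, k0, k4; k8, k4, k1, k8; k3, k8, k5, k4]
theorem t8_m5 : t8M4 * t8M = t8M5 := by decide +kernel
theorem t8_p5 : t8M ^ 5 = t8M5 :=
  (pow_add t8M 4 1).trans ((congrArg₂ (· * ·) t8_p4 t8_p1).trans t8_m5)
def t8M8 : M := !![k1, k0, k0, k0; k0, k1, k0, k0; k0, k0, k1, k0; k0, k0, k0, k1]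
theorem t8_m8 : t8M5 * t8M3 = t8M8 := by decide +kernel
theorem t8_p8 : t8M ^ 8 = t8M8 :=
  (pow_add t8M 5 3).trans ((congrArg₂ (· * ·) t8_p5 t8_p3).trans t8_m8)

theorem t8_pow : pr t8 ^ 8 = 1 := by
  rw [← map_pow, ← map_one pr]
  refine pr_eq_of_smul (c := k1) (by decide +kernel) (by decide +kernel) ?_
  rw [sm_pow, sm_t8, t8_p8]
  decide +kernel

theorem t8_ne : pr t8 ^ 4 ≠ 1 := by
  intro h
  rw [← map_pow, ← map_one pr] at h
  obtain ⟨c, hc⟩ := smul_of_pr_eq hF (by norm_num) h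
  rw [sm_pow, sm_t8, t8_p4] at hc
  revert c
  decide +kernel

def t8E : M := !![k0, k4, k4, k5; k0, k2, k1, k7; k1, k6, k5, k1; k0, k0, k4, k5]
def t8E' : M := !![k0, k6, k1, k5; k5, k0, k0, k7; k1, k4, k0, k3; k3, k5, k0, k3]
def t8R : List (List N9) := [[.a3, .a8, .a4, .a8], [.a7, .a4, .a2, .a4], [.a1, .a1, .a6, .a1], [.a0, .a8, .a0, .a4]]
def t8tg : List (List N9) := [[.a1, .a3, .a8, .a1], [.a1, .a6, .a8, .a2], [.a1, .a2, .a4, .a6], [.a1, .a1, .a4, .a3]]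
theorem t8_card : Nat.card (GU 4 K9 3) ≤ 128 * (orb t8).card :=
  card_GU_le hF (by norm_num) t8 cs_spec
    (card_le' law9 hF els9_spec (e := ![k0, k0, k1, k0]) (E := t8E) (E' := t8E') (by decide +kernel) (by decide +kernel)
      (by decide +kernel) cs_norm (R := t8R) (by decide +kernel) (tg := t8tg) (by decide +kernel)
      (by decide +kernel))

def t8S3 : M := !![k2, k4, k1, k0; k5, k2, k0, k6; k7, k5, k1, k7; k5, k5, k8, k1]
theorem t8_w3 : Pw t8 3 :=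
  pw_of_mat (s := mkSU cj9_eq t8S3 (by decide +kernel) (by decide +kernel) hF) (c := k3)
    (by decide +kernel) (by decide +kernel) (by
      rw [sm_t8, t8_p3]
      decide +kernel)

def t8S5 : M := !![k2, k6, k1, k2; k7, k0, k1, k3; k7, k2, k1, k0; k8, k4, k1, k7]
theorem t8_w5 : Pw t8 5 :=
  pw_of_mat (s := mkSU cj9_eq t8S5 (by decide +kernel) (by decide +kernel) hF) (c := k1)
    (by decide +kernel) (by decide +kernel) (by
      rw [sm_t8, t8_p5]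
      decide +kernel)

theorem t8_rw : ∀ j < 8, j.Coprime 8 → Pw t8 j := by
  intro j hj hc
  interval_cases j
  · exact absurd hc (by decide)
  · exact Pw.mod t8_pow (Pw.one _) rfl
  · exact absurd hc (by decide)
  · exact Pw.mod t8_pow t8_w3 rfl
  · exact absurd hc (by decide)
  · exact Pw.mod t8_pow t8_w5 rfl
  · exact absurd hc (by decide)
  · exact Pw.mod t8_pow (t8_w3.mul t8_w5) rfl

theorem t8_rat : Rat t8 := Rat.of (N := 8) (by rw [card_G]; decide) (by norm_num) t8_pow t8_rw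

theorem t8_dat : Dat t8 (2 ^ 3) 128 :=
  Dat.of (N := 8) (by rw [card_G]; decide) (by norm_num) t8_pow t8_card fun j hj hc => Or.inl (t8_rw j hj hc)

def u9M : M := !![k2, k0, k4, k3; k1, k1, k1, k2; k6, k1, k5, k0; k2, k4, k5, k8]
theorem u9_un : u9Mᵀ * u9M.map cj9 = 1 := by decide +kernel
theorem u9_det : u9M.det = 1 := by decide +kernel
/-- element -/
def u9 : SU 4 K9 3 := mkSU cj9_eq u9M u9_un u9_det hF
theorem sm_u9 : sm u9 = u9M := rfl

theorem u9_p1 : u9M ^ 1 = u9M := pow_one _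
def u9M2 : M := !![k5, k6, k5, k4; k7, k7, k5, k6; k8, k3, k2, k0; k1, k0, k5, k2]
theorem u9_m2 : u9M * u9M = u9M2 := by decide +kernel
theorem u9_p2 : u9M ^ 2 = u9M2 :=
  (pow_add u9M 1 1).trans ((congrArg₂ (· * ·) u9_p1 u9_p1).trans u9_m2)
def u9M3 : M := !![k4, k8, k2, k5; k7, k7, k4, k2; k1, k5, k4, k4; k4, k1, k5, k7]
theorem u9_m3 : u9M2 * u9M = u9M3 := by decide +kernel
theorem u9_p3 : u9M ^ 3 = u9M3 :=
  (pow_add u9M 2 1).trans ((congrArg₂ (· * ·) u9_p2 u9_p1).trans u9_m3)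
def u9M4 : M := !![k5, k8, k3, k8; k8, k7, k5, k1; k7, k3, k8, k4; k3, k5, k7, k5]
theorem u9_m4 : u9M3 * u9M = u9M4 := by decide +kernel
theorem u9_p4 : u9M ^ 4 = u9M4 :=
  (pow_add u9M 3 1).trans ((congrArg₂ (· * ·) u9_p3 u9_p1).trans u9_m4)
def u9M6 : M := !![k7, k4, k1, k7; k5, k4, k8, k1; k2, k7, k7, k8; k8, k2, k7, k4]
theorem u9_m6 : u9M4 * u9M2 = u9M6 := by decide +kernel
theorem u9_p6 : u9M ^ 6 = u9M6 :=
  (pow_add u9M 4 2).trans ((congrArg₂ (· * ·) u9_p4 u9_p2).trans u9_m6)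
def u9M9 : M := !![k1, k0, k0, k0; k0, k1, k0, k0; k0, k0, k1, k0; k0, k0, k0, k1]
theorem u9_m9 : u9M6 * u9M3 = u9M9 := by decide +kernel
theorem u9_p9 : u9M ^ 9 = u9M9 :=
  (pow_add u9M 6 3).trans ((congrArg₂ (· * ·) u9_p6 u9_p3).trans u9_m9)

theorem u9_pow : pr u9 ^ 9 = 1 := by
  rw [← map_pow, ← map_one pr]
  refine pr_eq_of_smul (c := k1) (by decide +kernel) (by decide +kernel) ?_
  rw [sm_pow, sm_u9, u9_p9]
  decide +kernel

theorem u9_ne : pr u9 ^ 3 ≠ 1 := by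
  intro h
  rw [← map_pow, ← map_one pr] at h
  obtain ⟨c, hc⟩ := smul_of_pr_eq hF (by norm_num) h
  rw [sm_pow, sm_u9, u9_p3] at hc
  revert c
  decide +kernel

def u9E : M := !![k0, k3, k4, k5; k0, k2, k6, k2; k0, k0, k0, k4; k1, k8, k2, k7]
def u9E' : M := !![k3, k7, k1, k1; k7, k3, k4, k0; k4, k5, k1, k0; k0, k0, k5, k0]
def u9R : List (List N9) := [[.a2, .a0, .a4, .a3], [.a1, .a1, .a1, .a2], [.a6, .a1, .a5, .a0], [.a2, .a4, .a5, .a8]]
def u9tg : List (List N9) := [[.a1, .a5, .a2, .a4], [.a1, .a7, .a2, .a8], [.a1, .a8, .a1, .a7], [.a1, .a4, .a1, .a5]]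
theorem u9_card : Nat.card (GU 4 K9 3) ≤ 108 * (orb u9).card :=
  card_GU_le hF (by norm_num) u9 cs_spec
    (card_le' law9 hF els9_spec (e := ![k0, k0, k0, k1]) (E := u9E) (E' := u9E') (by decide +kernel) (by decide +kernel)
      (by decide +kernel) cs_norm (R := u9R) (by decide +kernel) (tg := u9tg) (by decide +kernel)
      (by decide +kernel))

def u9S4 : M := !![k8, k3, k2, k0; k6, k7, k0, k1; k2, k0, k7, k3; k0, k1, k6, k8]
theorem u9_w4 : Pw u9 4 :=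
  pw_of_mat (s := mkSU cj9_eq u9S4 (by decide +kernel) (by decide +kernel) hF) (c := k1)
    (by decide +kernel) (by decide +kernel) (by
      rw [sm_u9, u9_p4]
      decide +kernel)

theorem u9_rw : ∀ j < 9, j.Coprime 9 → Pw u9 j ∨ Pw u9 (9 - j) := by
  intro j hj hc
  interval_cases j
  · exact absurd hc (by decide)
  · exact Or.inl (Pw.mod u9_pow (Pw.one _) rfl)
  · exact Or.inr (Pw.mod u9_pow (u9_w4.mul u9_w4) rfl)
  · exact absurd hc (by decide)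
  · exact Or.inl (Pw.mod u9_pow u9_w4 rfl)
  · exact Or.inr (Pw.mod u9_pow u9_w4 rfl)
  · exact absurd hc (by decide)
  · exact Or.inl (Pw.mod u9_pow (u9_w4.mul u9_w4) rfl)
  · exact Or.inr (Pw.mod u9_pow (Pw.one _) rfl)

theorem u9_dat : Dat u9 (3 ^ 2) 108 :=
  Dat.of (N := 9) (by rw [card_G]; decide) (by norm_num) u9_pow u9_card u9_rw

def z7M : M := !![k4, k2, k0, k2; k5, k8, k5, k1; k6, k6, k2, k2; k5, k0, k2, k6]
theorem z7_un : z7Mᵀ * z7M.map cj9 = 1 := by decide +kernel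
theorem z7_det : z7M.det = 1 := by decide +kernel
/-- element -/
def z7 : SU 4 K9 3 := mkSU cj9_eq z7M z7_un z7_det hF
theorem sm_z7 : sm z7 = z7M := rfl

theorem z7_p1 : z7M ^ 1 = z7M := pow_one _
def z7M2 : M := !![k2, k0, k8, k1; k6, k8, k8, k7; k0, k2, k3, k4; k8, k1, k4, k7]
theorem z7_m2 : z7M * z7M = z7M2 := by decide +kernel
theorem z7_p2 : z7M ^ 2 = z7M2 :=
  (pow_add z7M 1 1).trans ((congrArg₂ (· * ·) z7_p1 z7_p1).trans z7_m2)
def z7M3 : M := !![k3, k3, k3, k2; k8, k5, k8, k2; k6, k5, k0, k3; k0, k7, k3, k6]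
theorem z7_m3 : z7M2 * z7M = z7M3 := by decide +kernel
theorem z7_p3 : z7M ^ 3 = z7M3 :=
  (pow_add z7M 2 1).trans ((congrArg₂ (· * ·) z7_p2 z7_p1).trans z7_m3)
def z7M4 : M := !![k6, k5, k3, k0; k6, k8, k8, k4; k6, k5, k0, k6; k2, k2, k6, k3]
theorem z7_m4 : z7M3 * z7M = z7M4 := by decide +kernel
theorem z7_p4 : z7M ^ 4 = z7M4 :=
  (pow_add z7M 3 1).trans ((congrArg₂ (· * ·) z7_p3 z7_p1).trans z7_m4)
def z7M7 : M := !![k1, k0, k0, k0; k0, k1, k0, k0; k0, k0, k1, k0; k0, k0, k0, k1]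
theorem z7_m7 : z7M4 * z7M3 = z7M7 := by decide +kernel
theorem z7_p7 : z7M ^ 7 = z7M7 :=
  (pow_add z7M 4 3).trans ((congrArg₂ (· * ·) z7_p4 z7_p3).trans z7_m7)

theorem z7_pow : pr z7 ^ 7 = 1 := by
  rw [← map_pow, ← map_one pr]
  refine pr_eq_of_smul (c := k1) (by decide +kernel) (by decide +kernel) ?_
  rw [sm_pow, sm_z7, z7_p7]
  decide +kernel

theorem z7_ne : pr z7 ^ 1 ≠ 1 := by
  intro h
  rw [← map_pow, ← map_one pr] at h
  obtain ⟨c, hc⟩ := smul_of_pr_eq hF (by norm_num) h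
  rw [sm_pow, sm_z7, z7_p1] at hc
  revert c
  decide +kernel

def z7E : M := !![k0, k0, k8, k3; k0, k5, k8, k8; k1, k2, k3, k0; k0, k2, k4, k3]
def z7E' : M := !![k5, k6, k1, k3; k3, k1, k0, k4; k6, k7, k0, k6; k5, k3, k0, k8]
def z7R : List (List N9) := [[.a4, .a2, .a0, .a2], [.a5, .a8, .a5, .a1], [.a6, .a6, .a2, .a2], [.a5, .a0, .a2, .a6]]
def z7tg : List (List N9) := [[.a1, .a2, .a6, .a0], [.a1, .a1, .a6, .a0], [.a1, .a6, .a3, .a0], [.a1, .a3, .a3, .a0]]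
theorem z7_card : Nat.card (GU 4 K9 3) ≤ 112 * (orb z7).card :=
  card_GU_le hF (by norm_num) z7 cs_spec
    (card_le' law9 hF els9_spec (e := ![k0, k0, k1, k0]) (E := z7E) (E' := z7E') (by decide +kernel) (by decide +kernel)
      (by decide +kernel) cs_norm (R := z7R) (by decide +kernel) (tg := z7tg) (by decide +kernel)
      (by decide +kernel))

def z7S2 : M := !![k6, k0, k1, k8; k0, k2, k0, k0; k6, k0, k4, k2; k7, k0, k1, k2]
theorem z7_w2 : Pw z7 2 :=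
  pw_of_mat (s := mkSU cj9_eq z7S2 (by decide +kernel) (by decide +kernel) hF) (c := k1)
    (by decide +kernel) (by decide +kernel) (by
      rw [sm_z7, z7_p2]
      decide +kernel)

theorem z7_rw : ∀ j < 7, j.Coprime 7 → Pw z7 j ∨ Pw z7 (7 - j) := by
  intro j hj hc
  interval_cases j
  · exact absurd hc (by decide)
  · exact Or.inl (Pw.mod z7_pow (Pw.one _) rfl)
  · exact Or.inl (Pw.mod z7_pow z7_w2 rfl)
  · exact Or.inr (Pw.mod z7_pow (z7_w2.mul z7_w2) rfl)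
  · exact Or.inl (Pw.mod z7_pow (z7_w2.mul z7_w2) rfl)
  · exact Or.inr (Pw.mod z7_pow z7_w2 rfl)
  · exact Or.inr (Pw.mod z7_pow (Pw.one _) rfl)

theorem z7_dat : Dat z7 (7 ^ 1) 112 :=
  Dat.of (N := 7) (by rw [card_G]; decide) (by norm_num) z7_pow z7_card z7_rw

def t5M : M := !![k6, k0, k2, k4; k2, k3, k0, k7; k4, k7, k7, k2; k0, k2, k2, k4]
theorem t5_un : t5Mᵀ * t5M.map cj9 = 1 := by decide +kernel
theorem t5_det : t5M.det = 1 := by decide +kernel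
/-- element -/
def t5 : SU 4 K9 3 := mkSU cj9_eq t5M t5_un t5_det hF
theorem sm_t5 : sm t5 = t5M := rfl

theorem t5_p1 : t5M ^ 1 = t5M := pow_one _
def t5M2 : M := !![k7, k1, k4, k5; k0, k4, k3, k2; k2, k8, k0, k1; k6, k7, k1, k0]
theorem t5_m2 : t5M * t5M = t5M2 := by decide +kernel
theorem t5_p2 : t5M ^ 2 = t5M2 :=
  (pow_add t5M 1 1).trans ((congrArg₂ (· * ·) t5_p1 t5_p1).trans t5_m2)
def t5M3 : M := !![k4, k0, k2, k3; k1, k7, k5, k4; k7, k6, k0, k1; k8, k2, k1, k0]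
theorem t5_m3 : t5M2 * t5M = t5M3 := by decide +kernel
theorem t5_p3 : t5M ^ 3 = t5M3 :=
  (pow_add t5M 2 1).trans ((congrArg₂ (· * ·) t5_p2 t5_p1).trans t5_m3)
def t5M5 : M := !![k1, k0, k0, k0; k0, k1, k0, k0; k0, k0, k1, k0; k0, k0, k0, k1]
theorem t5_m5 : t5M3 * t5M2 = t5M5 := by decide +kernel
theorem t5_p5 : t5M ^ 5 = t5M5 :=
  (pow_add t5M 3 2).trans ((congrArg₂ (· * ·) t5_p3 t5_p2).trans t5_m5)

theorem t5_pow : pr t5 ^ 5 = 1 := by
  rw [← map_pow, ← map_one pr]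
  refine pr_eq_of_smul (c := k1) (by decide +kernel) (by decide +kernel) ?_
  rw [sm_pow, sm_t5, t5_p5]
  decide +kernel

theorem t5_ne : pr t5 ^ 1 ≠ 1 := by
  intro h
  rw [← map_pow, ← map_one pr] at h
  obtain ⟨c, hc⟩ := smul_of_pr_eq hF (by norm_num) h
  rw [sm_pow, sm_t5, t5_p1] at hc
  revert c
  decide +kernel

def t5E : M := !![k0, k3, k6, k5; k0, k7, k5, k6; k1, k6, k1, k1; k1, k3, k1, k1]
def t5E' : M := !![k1, k1, k5, k8; k0, k0, k6, k3; k8, k3, k6, k3; k3, k8, k0, k0]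
def t5R : List (List N9) := [[.a6, .a0, .a2, .a4], [.a2, .a3, .a0, .a7], [.a4, .a7, .a7, .a2], [.a0, .a2, .a2, .a4]]
def t5tg : List (List N9) := [[.a2, .a0, .a2, .a2], [.a2, .a0, .a2, .a1], [.a2, .a0, .a1, .a3], [.a2, .a0, .a1, .a6]]
theorem t5_card : Nat.card (GU 4 K9 3) ≤ 80 * (orb t5).card :=
  card_GU_le hF (by norm_num) t5 cs_spec
    (card_le' law9 hF els9_spec (e := ![k0, k0, k1, k1]) (E := t5E) (E' := t5E') (by decide +kernel) (by decide +kernel)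
      (by decide +kernel) cs_norm (R := t5R) (by decide +kernel) (tg := t5tg) (by decide +kernel)
      (by decide +kernel))

def t5S2 : M := !![k3, k7, k8, k4; k1, k6, k6, k3; k2, k7, k0, k1; k3, k8, k3, k0]
theorem t5_w2 : Pw t5 2 :=
  pw_of_mat (s := mkSU cj9_eq t5S2 (by decide +kernel) (by decide +kernel) hF) (c := k1)
    (by decide +kernel) (by decide +kernel) (by
      rw [sm_t5, t5_p2]
      decide +kernel)

theorem t5_rw : ∀ j < 5, j.Coprime 5 → Pw t5 j := by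
  intro j hj hc
  interval_cases j
  · exact absurd hc (by decide)
  · exact Pw.mod t5_pow (Pw.one _) rfl
  · exact Pw.mod t5_pow t5_w2 rfl
  · exact Pw.mod t5_pow ((t5_w2.mul t5_w2).mul t5_w2) rfl
  · exact Pw.mod t5_pow (t5_w2.mul t5_w2) rfl

theorem t5_rat : Rat t5 := Rat.of (N := 5) (by rw [card_G]; decide) (by norm_num) t5_pow t5_rw

theorem t5_dat : Dat t5 (5 ^ 1) 80 :=
  Dat.of (N := 5) (by rw [card_G]; decide) (by norm_num) t5_pow t5_card fun j hj hc => Or.inl (t5_rw j hj hc)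

end Cfsg.Agent.H933.OZ.U43
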