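import Cfsg.Agent.H933.OZ.Dat
import Cfsg.Agent.H933.OZ.OpsF

import Cfsg.Agent.S0280

/-!
# Orbit data for `PSU 6` over the field with `4` elements (helper933, for S4842; generated)
-/

set_option autoImplicit false

namespace Cfsg.Agent.H933.OZ.U62

open Cfsg Matrix Orb Cyc
open Cfsg.Agent.SporadicA.FieldFour F4

set_option maxRecDepth 100000

abbrev M := Matrix (Fin 6) (Fin 6) F4

theorem hF : Fintype.card F4 = 2 ^ 2 := rfl

theorem cs_spec : ∀ c : F4, c ^ 6 = 1 → c ^ (2 + 1) = 1 → c ∈ [o, w, v] := by decide +kernel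

theorem cs_norm : ∀ c ∈ [o, w, v], c ^ (2 + 1) = 1 := by decide +kernel

theorem card_G : Nat.card (PSU 6 F4 2) = 9196830720 := by
  have h := S0280.result hF 6 (by norm_num)
  norm_num [Finset.prod_range_succ] at h
  omega

def t9M : M := !![z, z, w, z, z, z; o, z, z, z, z, z; z, o, z, z, z, z; z, z, z, z, z, v; z, z, z, o, z, z; z, z, z, z, o, z]
theorem t9_un : t9Mᵀ * t9M.map cj4 = 1 := by decide +kernel
theorem t9_det : t9M.det = 1 := by decide +kernel
/-- element -/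
def t9 : SU 6 F4 2 := mkSU cj4_eq t9M t9_un t9_det hF
theorem sm_t9 : sm t9 = t9M := rfl

theorem t9_p1 : t9M ^ 1 = t9M := pow_one _
def t9M2 : M := !![z, w, z, z, z, z; z, z, w, z, z, z; o, z, z, z, z, z; z, z, z, z, v, z; z, z, z, z, z, v; z, z, z, o, z, z]
theorem t9_m2 : t9M * t9M = t9M2 := by decide +kernel
theorem t9_p2 : t9M ^ 2 = t9M2 :=
  (pow_add t9M 1 1).trans ((congrArg₂ (· * ·) t9_p1 t9_p1).trans t9_m2)
def t9M3 : M := !![w, z, z, z, z, z; z, w, z, z, z, z; z, z, w, z, z, z; z, z, z, v, z, z; z, z, z, z, v, z; z, z, z, z, z, v]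
theorem t9_m3 : t9M2 * t9M = t9M3 := by decide +kernel
theorem t9_p3 : t9M ^ 3 = t9M3 :=
  (pow_add t9M 2 1).trans ((congrArg₂ (· * ·) t9_p2 t9_p1).trans t9_m3)
def t9M6 : M := !![v, z, z, z, z, z; z, v, z, z, z, z; z, z, v, z, z, z; z, z, z, w, z, z; z, z, z, z, w, z; z, z, z, z, z, w]
theorem t9_m6 : t9M3 * t9M3 = t9M6 := by decide +kernel
theorem t9_p6 : t9M ^ 6 = t9M6 :=
  (pow_add t9M 3 3).trans ((congrArg₂ (· * ·) t9_p3 t9_p3).trans t9_m6)
def t9M9 : M := !![o, z, z, z, z, z; z, o, z, z, z, z; z, z, o, z, z, z; z, z, z, o, z, z; z, z, z, z, o, z; z, z, z, z, z, o]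
theorem t9_m9 : t9M6 * t9M3 = t9M9 := by decide +kernel
theorem t9_p9 : t9M ^ 9 = t9M9 :=
  (pow_add t9M 6 3).trans ((congrArg₂ (· * ·) t9_p6 t9_p3).trans t9_m9)

theorem t9_pow : pr t9 ^ 9 = 1 := by
  rw [← map_pow, ← map_one pr]
  refine pr_eq_of_smul (c := o) (by decide +kernel) (by decide +kernel) ?_
  rw [sm_pow, sm_t9, t9_p9]
  decide +kernel

theorem t9_ne : pr t9 ^ 3 ≠ 1 := by
  intro h
  rw [← map_pow, ← map_one pr] at h
  obtain ⟨c, hc⟩ := smul_of_pr_eq hF (by norm_num) h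
  rw [sm_pow, sm_t9, t9_p3] at hc
  revert c
  decide +kernel

def t9E : M := !![z, w, z, z, v, z; z, z, w, z, z, v; o, z, z, w, z, z; z, v, z, z, w, z; z, z, v, z, z, w; o, z, z, v, z, z]
def t9E' : M := !![z, z, v, z, z, w; w, z, z, v, z, z; z, w, z, z, v, z; z, z, o, z, z, o; v, z, z, w, z, z; z, v, z, z, w, z]
def t9R : List (List F4) := [[.z, .z, .w, .z, .z, .z], [.o, .z, .z, .z, .z, .z], [.z, .o, .z, .z, .z, .z], [.z, .z, .z, .z, .z, .v], [.z, .z, .z, .o, .z, .z], [.z, .z, .z, .z, .o, .z]]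
def t9tg : List (List F4) := [[.z, .z, .z, .o, .z, .z], [.z, .z, .z, .o, .z, .z], [.z, .z, .z, .o, .z, .z]]
theorem t9_card : Nat.card (GU 6 F4 2) ≤ 243 * (orb t9).card :=
  card_GU_le hF (by norm_num) t9 cs_spec
    (card_le' law4 hF els4_spec (e := ![z, z, o, z, z, o]) (E := t9E) (E' := t9E') (by decide +kernel) (by decide +kernel)
      (by decide +kernel) cs_norm (R := t9R) (by decide +kernel) (tg := t9tg) (by decide +kernel)
      (by decide +kernel))

def t9S2 : M := !![z, z, z, z, o, z; z, z, z, v, z, z; z, z, z, z, z, o; z, o, z, z, z, z; w, z, z, z, z, z; z, z, o, z, z, z]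
theorem t9_w2 : Pw t9 2 :=
  pw_of_mat (s := mkSU cj4_eq t9S2 (by decide +kernel) (by decide +kernel) hF) (c := o)
    (by decide +kernel) (by decide +kernel) (by
      rw [sm_t9, t9_p2]
      decide +kernel)

theorem t9_rw : ∀ j < 9, j.Coprime 9 → Pw t9 j := by
  intro j hj hc
  interval_cases j
  · exact absurd hc (by decide)
  · exact Pw.mod t9_pow (Pw.one _) rfl
  · exact Pw.mod t9_pow t9_w2 rfl
  · exact absurd hc (by decide)
  · exact Pw.mod t9_pow (t9_w2.mul t9_w2) rfl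
  · exact Pw.mod t9_pow ((((t9_w2.mul t9_w2).mul t9_w2).mul t9_w2).mul t9_w2) rfl
  · exact absurd hc (by decide)
  · exact Pw.mod t9_pow (((t9_w2.mul t9_w2).mul t9_w2).mul t9_w2) rfl
  · exact Pw.mod t9_pow ((t9_w2.mul t9_w2).mul t9_w2) rfl

theorem t9_rat : Rat t9 := Rat.of (N := 9) (by rw [card_G]; decide) (by norm_num) t9_pow t9_rw

theorem t9_dat : Dat t9 (3 ^ 2) 243 :=
  Dat.of (N := 9) (by rw [card_G]; decide) (by norm_num) t9_pow t9_card fun j hj hc => Or.inl (t9_rw j hj hc)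

def u8M : M := !![z, o, o, v, o, v; o, v, v, w, v, z; v, w, w, z, w, o; v, v, v, o, z, o; v, v, z, o, v, o; w, z, w, v, w, v]
theorem u8_un : u8Mᵀ * u8M.map cj4 = 1 := by decide +kernel
theorem u8_det : u8M.det = 1 := by decide +kernel
/-- element -/
def u8 : SU 6 F4 2 := mkSU cj4_eq u8M u8_un u8_det hF
theorem sm_u8 : sm u8 = u8M := rfl

theorem u8_p1 : u8M ^ 1 = u8M := pow_one _
def u8M2 : M := !![w, z, w, w, v, o; w, o, v, v, z, o; z, z, v, z, w, o; z, v, o, o, w, v; z, z, z, w, o, v; v, w, w, w, o, z]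
theorem u8_m2 : u8M * u8M = u8M2 := by decide +kernel
theorem u8_p2 : u8M ^ 2 = u8M2 :=
  (pow_add u8M 1 1).trans ((congrArg₂ (· * ·) u8_p1 u8_p1).trans u8_m2)
def u8M3 : M := !![z, w, w, v, o, o; v, w, z, v, w, w; o, z, v, o, w, w; v, w, w, z, z, z; v, w, z, o, w, o; o, v, z, w, w, v]
theorem u8_m3 : u8M2 * u8M = u8M3 := by decide +kernel
theorem u8_p3 : u8M ^ 3 = u8M3 :=
  (pow_add u8M 2 1).trans ((congrArg₂ (· * ·) u8_p2 u8_p1).trans u8_m3)
def u8M4 : M := !![z, v, w, w, v, v; w, o, v, o, z, w; v, w, z, o, w, w; v, o, o, o, o, z; w, z, v, o, o, w; w, v, v, z, v, o]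
theorem u8_m4 : u8M3 * u8M = u8M4 := by decide +kernel
theorem u8_p4 : u8M ^ 4 = u8M4 :=
  (pow_add u8M 3 1).trans ((congrArg₂ (· * ·) u8_p3 u8_p1).trans u8_m4)
def u8M5 : M := !![z, w, o, w, w, o; v, v, z, v, v, w; v, z, w, v, z, z; w, w, o, z, o, v; o, v, v, z, v, v; o, v, v, z, o, w]
theorem u8_m5 : u8M4 * u8M = u8M5 := by decide +kernel
theorem u8_p5 : u8M ^ 5 = u8M5 :=
  (pow_add u8M 4 1).trans ((congrArg₂ (· * ·) u8_p4 u8_p1).trans u8_m5)
def u8M8 : M := !![o, z, z, z, z, z; z, o, z, z, z, z; z, z, o, z, z, z; z, z, z, o, z, z; z, z, z, z, o, z; z, z, z, z, z, o]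
theorem u8_m8 : u8M5 * u8M3 = u8M8 := by decide +kernel
theorem u8_p8 : u8M ^ 8 = u8M8 :=
  (pow_add u8M 5 3).trans ((congrArg₂ (· * ·) u8_p5 u8_p3).trans u8_m8)

theorem u8_pow : pr u8 ^ 8 = 1 := by
  rw [← map_pow, ← map_one pr]
  refine pr_eq_of_smul (c := o) (by decide +kernel) (by decide +kernel) ?_
  rw [sm_pow, sm_u8, u8_p8]
  decide +kernel

theorem u8_ne : pr u8 ^ 4 ≠ 1 := by
  intro h
  rw [← map_pow, ← map_one pr] at h
  obtain ⟨c, hc⟩ := smul_of_pr_eq hF (by norm_num) h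
  rw [sm_pow, sm_u8, u8_p4] at hc
  revert c
  decide +kernel

def u8E : M := !![z, v, o, o, v, o; z, z, o, w, w, w; z, o, o, w, w, z; z, o, v, z, z, v; z, o, v, o, w, v; o, v, z, v, o, w]
def u8E' : M := !![w, z, w, w, w, o; o, v, w, v, v, z; o, z, o, o, v, z; z, o, v, o, w, z; z, v, w, z, w, z; v, o, w, w, w, z]
def u8R : List (List F4) := [[.z, .o, .o, .v, .o, .v], [.o, .v, .v, .w, .v, .z], [.v, .w, .w, .z, .w, .o], [.v, .v, .v, .o, .z, .o], [.v, .v, .z, .o, .v, .o], [.w, .z, .w, .v, .w, .v]]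
def u8tg : List (List F4) := [[.o, .w, .z, .w, .o, .v], [.o, .v, .z, .w, .w, .w], [.o, .o, .z, .w, .v, .o]]
theorem u8_card : Nat.card (GU 6 F4 2) ≤ 96 * (orb u8).card :=
  card_GU_le hF (by norm_num) u8 cs_spec
    (card_le' law4 hF els4_spec (e := ![z, z, z, z, z, o]) (E := u8E) (E' := u8E') (by decide +kernel) (by decide +kernel)
      (by decide +kernel) cs_norm (R := u8R) (by decide +kernel) (tg := u8tg) (by decide +kernel)
      (by decide +kernel))

def u8S3 : M := !![o, o, w, v, v, z; o, z, v, w, z, z; v, w, o, w, v, z; w, v, v, o, v, z; w, z, w, w, z, z; z, z, z, z, z, o]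
theorem u8_w3 : Pw u8 3 :=
  pw_of_mat (s := mkSU cj4_eq u8S3 (by decide +kernel) (by decide +kernel) hF) (c := o)
    (by decide +kernel) (by decide +kernel) (by
      rw [sm_u8, u8_p3]
      decide +kernel)

def u8S5 : M := !![o, v, o, v, o, z; w, v, v, z, z, z; z, w, w, o, v, o; o, v, o, v, z, w; v, z, o, v, v, o; o, w, z, o, z, z]
theorem u8_w5 : Pw u8 5 :=
  pw_of_mat (s := mkSU cj4_eq u8S5 (by decide +kernel) (by decide +kernel) hF) (c := o)
    (by decide +kernel) (by decide +kernel) (by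
      rw [sm_u8, u8_p5]
      decide +kernel)

theorem u8_rw : ∀ j < 8, j.Coprime 8 → Pw u8 j := by
  intro j hj hc
  interval_cases j
  · exact absurd hc (by decide)
  · exact Pw.mod u8_pow (Pw.one _) rfl
  · exact absurd hc (by decide)
  · exact Pw.mod u8_pow u8_w3 rfl
  · exact absurd hc (by decide)
  · exact Pw.mod u8_pow u8_w5 rfl
  · exact absurd hc (by decide)
  · exact Pw.mod u8_pow (u8_w3.mul u8_w5) rfl

theorem u8_rat : Rat u8 := Rat.of (N := 8) (by rw [card_G]; decide) (by norm_num) u8_pow u8_rw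

theorem u8_dat : Dat u8 (2 ^ 3) 96 :=
  Dat.of (N := 8) (by rw [card_G]; decide) (by norm_num) u8_pow u8_card fun j hj hc => Or.inl (u8_rw j hj hc)

end Cfsg.Agent.H933.OZ.U62
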